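import Cfsg.Agent.H940.E8L.En41a
import Cfsg.Agent.H525.E8L.Iface2

/-!
# ENUM41 (S5921; helper940): no class of elements of order 41 with the multiplicities of P3'
-/

set_option autoImplicit false
set_option maxRecDepth 100000

namespace Cfsg.Agent.H940.E8L.En41

open Cfsg.Lie Cfsg.Agent.ChevalleyStructure Cfsg.Agent.H944.RootVals
open Cfsg.Agent.H944.Tab Cfsg.Agent.H943.E8Tab Cfsg.Agent.H943.En

theorem fast41_eq (E : ℕ) : fast41 E = and (Nat.beq (NN E 1) 9) (Nat.beq (NN E 3) 9) := by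
  have h1 : (256 : ℕ) ^ 40 = 2135987035920910082395021706169552114602704522356652769947041607822219725780640550022962086936576 := by
    norm_num
  have h2 : (256 : ℕ) ^ 38 = 32592575621351777380295131014550050576823494298654980010178247189670100796213387298934358016 := by
    norm_num
  have h3 : (256 : ℕ) ^ 3 = 16777216 := by norm_num
  show and (Nat.beq (E / 256 % 256 + E / _ % 256) 9) (Nat.beq (E / _ % 256 + E / _ % 256) 9) =
    and (Nat.beq (E / 256 ^ 1 % 256 + E / 256 ^ 40 % 256) 9) (Nat.beq (E / 256 ^ 3 % 256 + E / 256 ^ 38 % 256) 9)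
  rw [h1, h2, h3, pow_one]

/-- **the alcove vectors of order dividing 41** -/
theorem enum41 {Y : List ℕ} (hl : Y.length = 8) (hθ : dotN th8 Y ≤ 41)
    (h1 : (ms chevE8 8 (vecOf 41 Y)).count ((1 : ℕ) : ZMod 41) = 9)
    (h3 : (ms chevE8 8 (vecOf 41 Y)).count ((3 : ℕ) : ZMod 41) = 9)
    (h9 : (ms chevE8 8 (vecOf 41 Y)).count ((9 : ℕ) : ZMod 41) = 9)
    (h14 : (ms chevE8 8 (vecOf 41 Y)).count ((14 : ℕ) : ZMod 41) = 9)
    (h2 : (ms chevE8 8 (vecOf 41 Y)).count ((2 : ℕ) : ZMod 41) = 6) : False := by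
  obtain ⟨s1, s2, s3, s4, s5, s6, s7, s8, rfl⟩ := list8 hl
  obtain ⟨E, hE⟩ : ∃ E, E = gen 256 s1 s2 s3 s4 s5 s6 s7 s8 := ⟨_, rfl⟩
  have hN : ∀ r, 0 < r → r < 41 → NN E r =
      (ms chevE8 8 (vecOf 41 [s1, s2, s3, s4, s5, s6, s7, s8])).count ((r : ℕ) : ZMod 41) := by
    intro r hr0 hr
    rw [count_vec _ hθ hr0 hr]
    show dg E r + dg E (41 - r) = _
    rw [hE, dg_gen, dg_gen]
  have hall := outer_spec all41 s1 s2 s3 s4 s5 s6 s7 s8 (by rw [dotN_th8] at hθ; omega)
  unfold K41 at hall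
  rw [← hE, fast41_eq, hN 1 (by norm_num) (by norm_num), hN 3 (by norm_num) (by norm_num),
    hN 9 (by norm_num) (by norm_num), hN 14 (by norm_num) (by norm_num), hN 2 (by norm_num) (by norm_num),
    h1, h2, h3, h9, h14] at hall
  exact Bool.false_ne_true hall

end Cfsg.Agent.H940.E8L.En41

namespace Cfsg.Agent.H940.E8L

open Cfsg.Lie Cfsg.Agent.ChevalleyStructure Cfsg.Agent.H944.RootVals Cfsg.Agent.H525.E8L

/-- **ENUM41** -/
theorem enum41Stmt : Enum41Stmt := by
  rintro v hst ⟨-, h1, h2, -, -, -⟩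
  obtain ⟨Y, hl, hθ, hY⟩ := Cfsg.Agent.H942.E8Alc.exists_alc (N := 41) (by norm_num) v
  have hY' : ms chevE8 8 (Cfsg.Agent.H943.E8Tab.vecOf 41 Y) = ms chevE8 8 v := hY
  have hinj : Function.Injective (fun a : ZMod 41 => 3 * a) := by
    intro a b hab
    have h14 : (14 : ZMod 41) * (3 * a) = 14 * (3 * b) := congrArg (fun x => 14 * x) hab
    have e : ∀ x : ZMod 41, 14 * (3 * x) = 42 * x := fun x => by ring
    have e2 : (42 : ZMod 41) = 1 := by decide
    rw [e, e, e2, one_mul, one_mul] at h14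
    exact h14
  have hs : ∀ c : ZMod 41, (ms chevE8 8 v).count (3 * c) = (ms chevE8 8 v).count c := by
    intro c
    conv_lhs => rw [hst]
    exact Multiset.count_map_eq_count' _ _ hinj c
  have h3 : (ms chevE8 8 v).count 3 = 9 := by
    have := hs 1
    rwa [mul_one, h1] at this
  have h9 : (ms chevE8 8 v).count 9 = 9 := by
    have := hs 3
    rwa [h3, show (3 : ZMod 41) * 3 = 9 by decide] at this
  have h27 : (ms chevE8 8 v).count 27 = 9 := by
    have := hs 9
    rwa [h9, show (3 : ZMod 41) * 9 = 27 by decide] at this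
  have h40 : (ms chevE8 8 v).count 40 = 9 := by
    have := hs 27
    rwa [h27, show (3 : ZMod 41) * 27 = 40 by decide] at this
  have h38 : (ms chevE8 8 v).count 38 = 9 := by
    have := hs 40
    rwa [h40, show (3 : ZMod 41) * 40 = 38 by decide] at this
  have h32 : (ms chevE8 8 v).count 32 = 9 := by
    have := hs 38
    rwa [h38, show (3 : ZMod 41) * 38 = 32 by decide] at this
  have h14 : (ms chevE8 8 v).count 14 = 9 := by
    have := hs 32
    rwa [h32, show (3 : ZMod 41) * 32 = 14 by decide] at this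
  refine En41.enum41 hl hθ ?_ ?_ ?_ ?_ ?_
  · rw [hY']; exact h1
  · rw [hY']; exact h3
  · rw [hY']; exact h9
  · rw [hY']; exact h14
  · rw [hY']; exact h2

end Cfsg.Agent.H940.E8L
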