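import Cfsg.Agent.H943.EnDg

/-!
# The alcove vectors of `E8` of order 41 (helper940, S5921; method of helper943)
-/

set_option autoImplicit false
set_option maxRecDepth 100000

namespace Cfsg.Agent.H940.E8L.En41

open Cfsg.Agent.H943.En

local infixl:65 " ⊞ " => Nat.add
local infixl:70 " ⊠ " => Nat.mul

/-- nine values `1` or `40`, nine values `3` or `38` -/
def fast41 (E : ℕ) : Bool := and
  (Nat.beq (Nat.mod (Nat.div E 256) 256 ⊞ Nat.mod (Nat.div E 2135987035920910082395021706169552114602704522356652769947041607822219725780640550022962086936576) 256) 9)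
  (Nat.beq (Nat.mod (Nat.div E 16777216) 256 ⊞ Nat.mod (Nat.div E 32592575621351777380295131014550050576823494298654980010178247189670100796213387298934358016) 256) 9)

def NN (E r : ℕ) : ℕ := dg E r ⊞ dg E (Nat.sub 41 r)

def K41 (_ _ _ _ _ _ _ _ E : ℕ) : Bool :=
  bif fast41 E then bif and (Nat.beq (NN E 9) 9) (Nat.beq (NN E 14) 9) then not (Nat.beq (NN E 2) 6) else true else true

set_option maxHeartbeats 0
theorem t6 : outer 256 41 K41 6 = true := by decide +kernel
theorem t5 : outer 256 41 K41 5 = true := by decide +kernel
theorem t4 : outer 256 41 K41 4 = true := by decide +kernel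
theorem t3 : outer 256 41 K41 3 = true := by decide +kernel
theorem t2 : outer 256 41 K41 2 = true := by decide +kernel
theorem t1 : outer 256 41 K41 1 = true := by decide +kernel
theorem t0 : outer 256 41 K41 0 = true := by decide +kernel

theorem all41 : ∀ s4 ≤ 41 / 6, outer 256 41 K41 s4 = true := by
  intro s4 h4
  have : s4 ≤ 6 := h4
  interval_cases s4
  exacts [t0, t1, t2, t3, t4, t5, t6]

end Cfsg.Agent.H940.E8L.En41
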